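import Mathlib
import Cfsg.Agent.Lib.Helper49.RUW.Defs

set_option autoImplicit false

/-!
Project RUW (helper49, S3174 + S3175): package [COMPL].
-/

namespace Cfsg.Agent.Lib.Helper72.RUW

open Cfsg.Agent.Lib.Helper49.RUW

universe u

theorem pkgCompl : PkgCompl.{u} := by
  intro T _ _ K H E hHE hEK hne hsq hnorm
  classical
  obtain ⟨e, heE, heH⟩ : ∃ e ∈ E, e ∉ H := by
    by_contra h
    push Not at h
    exact hne (le_antisymm hHE h)
  have hHK : H ≤ K := hHE.trans hEK
  -- commutators of `K` lie in `H`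
  have hcomm : ∀ a ∈ K, ∀ b ∈ K, a * b * a⁻¹ * b⁻¹ ∈ H := by
    intro a ha b hb
    have h1 := hsq (a * b) (K.mul_mem ha hb)
    have h2 := hsq a⁻¹ (K.inv_mem ha)
    have h3 := hsq b⁻¹ (K.inv_mem hb)
    have h4 := hnorm b⁻¹ (K.inv_mem hb) _ h2
    have e1 : a * b * a⁻¹ * b⁻¹
        = (a * b * (a * b)) * (b⁻¹ * (a⁻¹ * a⁻¹) * b⁻¹⁻¹) * (b⁻¹ * b⁻¹) := by group
    rw [e1]
    exact H.mul_mem (H.mul_mem h1 h4) h3
  -- subgroups between `H` and `K` are normalized by `K`
  have hnormU : ∀ U : Subgroup T, H ≤ U → ∀ k ∈ K, ∀ u ∈ U, u ∈ K → k * u * k⁻¹ ∈ U := by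
    intro U hHU k hk u hu huK
    have e1 : k * u * k⁻¹ = (k * u * k⁻¹ * u⁻¹) * u := by group
    rw [e1]
    exact U.mul_mem (hHU (hcomm k hk u huK)) hu
  -- a maximal `U` with `H ≤ U ≤ K`, `e ∉ U`
  obtain ⟨U, ⟨hHU, hUK, heU⟩, hmax⟩ :=
    Set.exists_max_image {U : Subgroup T | H ≤ U ∧ U ≤ K ∧ e ∉ U} (fun U => Nat.card U)
      (Set.toFinite _) ⟨H, le_refl H, hHK, heH⟩
  have hcov : ∀ k ∈ K, k ∈ U ∨ e⁻¹ * k ∈ U := by
    intro k hk
    by_contra hcon
    push Not at hcon
    obtain ⟨hkU, hekU⟩ := hcon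
    have hki : k⁻¹ ∈ K := K.inv_mem hk
    let U' : Subgroup T :=
      { carrier := {x | x ∈ U ∨ k⁻¹ * x ∈ U}
        mul_mem' := by
          rintro x y (hx | hx) (hy | hy)
          · exact Or.inl (U.mul_mem hx hy)
          · right
            have e1 : k⁻¹ * (x * y) = (k⁻¹ * x * k⁻¹⁻¹) * (k⁻¹ * y) := by group
            rw [e1]
            exact U.mul_mem (hnormU U hHU k⁻¹ hki x hx (hUK hx)) hy
          · right
            have e1 : k⁻¹ * (x * y) = (k⁻¹ * x) * y := by group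
            rw [e1]
            exact U.mul_mem hx hy
          · left
            have e1 : x * y = (k * k) * (k⁻¹ * (k⁻¹ * x) * k⁻¹⁻¹) * (k⁻¹ * y) := by group
            rw [e1]
            exact U.mul_mem (U.mul_mem (hHU (hsq k hk))
              (hnormU U hHU k⁻¹ hki _ hx (hUK hx))) hy
        one_mem' := Or.inl U.one_mem
        inv_mem' := by
          rintro x (hx | hx)
          · exact Or.inl (U.inv_mem hx)
          · right
            have e1 : k⁻¹ * x⁻¹ = (k⁻¹ * (k⁻¹ * x)⁻¹ * k⁻¹⁻¹) * (k⁻¹ * k⁻¹) := by group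
            rw [e1]
            exact U.mul_mem (hnormU U hHU k⁻¹ hki _ (U.inv_mem hx) (hUK (U.inv_mem hx)))
              (hHU (hsq k⁻¹ hki)) }
    have hUU' : U ≤ U' := fun x hx => Or.inl hx
    have hkU' : k ∈ U' := Or.inr (by rw [inv_mul_cancel]; exact U.one_mem)
    have hU'S : U' ∈ {U : Subgroup T | H ≤ U ∧ U ≤ K ∧ e ∉ U} := by
      refine ⟨hHU.trans hUU', ?_, ?_⟩
      · rintro x (hx | hx)
        · exact hUK hx
        · have e1 : x = k * (k⁻¹ * x) := by group
          rw [e1]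
          exact K.mul_mem hk (hUK hx)
      · rintro (h | h)
        · exact heU h
        · apply hekU
          have e1 : e⁻¹ * k = (k⁻¹ * e)⁻¹ := by group
          rw [e1]
          exact U.inv_mem h
    have h1 : Nat.card ↥U' ≤ Nat.card ↥U := hmax U' hU'S
    have h2 := Subgroup.eq_of_le_of_card_ge hUU' h1
    exact hkU (h2 ▸ hkU')
  refine ⟨U, hUK, fun hEU => heU (hEU heE), ?_⟩
  -- counting: `K ⊆ U ∪ e U`
  let f : ↥K → Bool × ↥U := fun k =>
    if h : (k : T) ∈ U then (false, ⟨(k : T), h⟩)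
    else (true, ⟨e⁻¹ * (k : T), (hcov k k.2).resolve_left h⟩)
  have hf : Function.Injective f := by
    intro a b hab
    simp only [f] at hab
    split_ifs at hab with h1 h2 h2
    · have h3 := congrArg (fun z : Bool × ↥U => (z.2 : T)) hab
      exact Subtype.ext h3
    · have h3 := congrArg Prod.fst hab
      simp at h3
    · have h3 := congrArg Prod.fst hab
      simp at h3
    · have h3 := congrArg (fun z : Bool × ↥U => (z.2 : T)) hab
      exact Subtype.ext (mul_left_cancel h3)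
  have hcard := Nat.card_le_card_of_injective f hf
  rw [Nat.card_prod] at hcard
  have hb : Nat.card Bool = 2 := by simp
  rw [hb] at hcard
  exact hcard

end Cfsg.Agent.Lib.Helper72.RUW
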