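import Mathlib
import Cfsg.Agent.Lib.Helper49.RUW.Defs
import Cfsg.Agent.Lib.Helper87.PGroupFrattini

set_option autoImplicit false

/-!
Project RUW (helper49, S3174 + S3175): package [ELEM].

If the Frattini subgroup of a finite 2-group `W` lies in every subgroup of index `≤ 16`, then all
squares lie in `W'` (otherwise a character of `W / W'` gives a cyclic quotient of order 4), hence
`Φ(W) ≤ W'`.
-/

namespace Cfsg.Agent.Lib.Helper72.RUW

open Cfsg.Agent.Lib.Helper49.RUW

universe u

theorem pkgElem : PkgElem.{u} := by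
  intro W _ _ hW hU
  have hsq : ∀ w : W, (Abelianization.of w) ^ 2 = 1 := by
    by_contra hcon
    push Not at hcon
    obtain ⟨w, hw⟩ := hcon
    obtain ⟨φ, hφ⟩ :=
      CommGroup.exists_apply_ne_one_of_hasEnoughRootsOfUnity (Abelianization W) ℂ hw
    obtain ⟨χ, hχ⟩ : ∃ χ : W →* ℂˣ, χ = φ.comp Abelianization.of := ⟨_, rfl⟩
    have hχw : (χ w) ^ 2 ≠ 1 := by
      rw [hχ]
      intro h
      apply hφ
      rw [map_pow]
      exact h
    -- the orders of the values of `χ` are powers of 2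
    have hord : ∀ x : W, ∃ j, orderOf (χ x) = 2 ^ j := by
      intro x
      obtain ⟨k, hk⟩ := hW x
      have h1 : (χ x) ^ 2 ^ k = 1 := by rw [← map_pow, hk, map_one]
      obtain ⟨j, -, hj⟩ := (Nat.dvd_prime_pow Nat.prime_two).mp (orderOf_dvd_of_pow_eq_one h1)
      exact ⟨j, hj⟩
    obtain ⟨x₀, hx₀⟩ := Finite.exists_max (fun x : W => orderOf (χ x))
    obtain ⟨m, hm⟩ := hord x₀
    have hall : ∀ x : W, (χ x) ^ 2 ^ m = 1 := by
      intro x
      obtain ⟨j, hj⟩ := hord x
      have hle : 2 ^ j ≤ 2 ^ m := by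
        rw [← hj, ← hm]
        exact hx₀ x
      have hjm : j ≤ m := (Nat.pow_le_pow_iff_right (by norm_num)).mp hle
      apply orderOf_dvd_iff_pow_eq_one.mp
      rw [hj]
      exact pow_dvd_pow 2 hjm
    have hm2 : 2 ≤ m := by
      by_contra hlt
      have hm1 : m ≤ 1 := by omega
      apply hχw
      have hdvd : 2 ^ m ∣ 2 := by
        interval_cases m <;> norm_num
      exact orderOf_dvd_iff_pow_eq_one.mp ((orderOf_dvd_iff_pow_eq_one.mpr (hall w)).trans hdvd)
    obtain ⟨ψ, hψ⟩ : ∃ ψ : W →* ℂˣ, ψ = (powMonoidHom (2 ^ (m - 2))).comp χ := ⟨_, rfl⟩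
    have hψx : ∀ x, ψ x = (χ x) ^ 2 ^ (m - 2) := by
      intro x
      rw [hψ]
      rfl
    have hψ4 : ∀ x, (ψ x) ^ 4 = 1 := by
      intro x
      rw [hψx, ← pow_mul]
      have e1 : 2 ^ (m - 2) * 4 = 2 ^ m := by
        have e2 : m = (m - 2) + 2 := by omega
        conv_rhs => rw [e2, pow_add]
        norm_num
      rw [e1]
      exact hall x
    have hidx : ψ.ker.index ≤ 16 := by
      rw [Subgroup.index_ker]
      have hle : ψ.range ≤ rootsOfUnity 4 ℂ := by
        rintro _ ⟨x, rfl⟩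
        rw [mem_rootsOfUnity]
        exact hψ4 x
      have h1 := Subgroup.card_le_of_le hle
      have h2 : Nat.card (rootsOfUnity 4 ℂ) = 4 := Complex.card_rootsOfUnity 4
      omega
    have h1 : x₀ ^ 2 ∈ frattini W := Cfsg.Agent.Lib.Helper87.pow_p_mem_frattini hW x₀
    have h2 := hU ψ.ker hidx h1
    rw [MonoidHom.mem_ker, hψx, map_pow, ← pow_mul] at h2
    have e3 : 2 * 2 ^ (m - 2) = 2 ^ (m - 1) := by
      have e4 : m - 1 = (m - 2) + 1 := by omega
      rw [e4, pow_succ]
      ring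
    rw [e3] at h2
    have h4 := orderOf_dvd_of_pow_eq_one h2
    rw [hm] at h4
    have h5 := (Nat.pow_dvd_pow_iff_le_right (by norm_num : 1 < 2)).mp h4
    omega
  have hker := Cfsg.Agent.Lib.Helper87.frattini_le_ker_of_exponent (p := 2)
    (Abelianization.of : W →* Abelianization W) hsq
  rw [Abelianization.ker_of] at hker
  exact hker

end Cfsg.Agent.Lib.Helper72.RUW
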