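import Mathlib
import Cfsg.Agent.Lib.Helper49.RUW.Defs
import Cfsg.Agent.Lib.Helper53.PGroups

set_option autoImplicit false

/-!
Project RUW (helper49, S3174 + S3175): package [NORMCENT].
-/

namespace Cfsg.Agent.Lib.Helper72.RUW

open Cfsg.Agent.Lib.Helper49.RUW

universe u

theorem pkgNormCent : PkgNormCent.{u} := by
  intro T _ _ hT N Z hN hZ hZN hne
  have hQ : IsPGroup 2 (T ⧸ Z) := hT.to_quotient Z
  have hDn : (N.map (QuotientGroup.mk' Z)).Normal :=
    hN.map _ (QuotientGroup.mk'_surjective Z)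
  have hD : N.map (QuotientGroup.mk' Z) ≠ ⊥ := by
    intro h
    apply hne
    apply le_antisymm hZN
    intro n hn
    have h1 : QuotientGroup.mk' Z n ∈ N.map (QuotientGroup.mk' Z) :=
      Subgroup.mem_map_of_mem _ hn
    rw [h, Subgroup.mem_bot] at h1
    exact (QuotientGroup.eq_one_iff n).mp h1
  obtain ⟨z, hzD, hz1, hzc⟩ :=
    Cfsg.Agent.Lib.Helper53.exists_mem_center_of_normal_of_ne_bot hQ
      (N.map (QuotientGroup.mk' Z)) hD
  obtain ⟨y, hyN, rfl⟩ := hzD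
  refine ⟨y, hyN, fun hyZ => hz1 ((QuotientGroup.eq_one_iff y).mpr hyZ), fun t => ?_⟩
  rw [← QuotientGroup.eq_one_iff]
  have hc : (t : T ⧸ Z) * (y : T ⧸ Z) = (y : T ⧸ Z) * (t : T ⧸ Z) :=
    Subgroup.mem_center_iff.mp hzc (t : T ⧸ Z)
  unfold cg
  rw [QuotientGroup.mk_mul, QuotientGroup.mk_inv, QuotientGroup.mk_mul, QuotientGroup.mk_mul,
    QuotientGroup.mk_inv, hc]
  group

end Cfsg.Agent.Lib.Helper72.RUW
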